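import Mathlib
import Cfsg.Agent.Lib.ChDeg.Cliff
import Cfsg.Agent.Lib.ChDeg.Avg
import Cfsg.Agent.Lib.CharDeep.ProjExt
import Cfsg.Agent.Lib.CharDeep.Gallagher

/-!
Faithful characters of `2`-groups of extraspecial type, the product of extensions over a central
product, and the parity lemma for extensions over a `2`-group.
-/

set_option autoImplicit false

namespace CfsgLib.ChA

open Cfsg CfsgLib.Char CfsgLib.ChDeg CfsgLib.CharDeep Subgroup
open scoped ComplexConjugate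

variable {G : Type*} [Group G]

theorem mem_zpowers_two {z x : G} (hz : orderOf z = 2) : x ∈ zpowers z ↔ x = 1 ∨ x = z := by
  refine ⟨fun ⟨i, h⟩ => ?_, by rintro (rfl | rfl); exacts [one_mem _, mem_zpowers _]⟩
  have h2 := zpow_mod_orderOf z i
  rw [hz] at h2
  rcases Int.emod_two_eq_zero_or_one i with e | e
  · exact .inl (by rw [← h]; simpa [e] using h2.symm)
  · exact .inr (by rw [← h]; simpa [e] using h2.symm)

/-- centre `⟨z⟩` of order two containing the derived subgroup -/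
structure XS (G : Type*) [Group G] (z : G) : Prop where
  z2 : orderOf z = 2
  cm : ∀ a b : G, a * b * a⁻¹ * b⁻¹ ∈ zpowers z
  ce : ∀ e, e ∈ center G ↔ e ∈ zpowers z

/-- the value at `z` and the degree of the faithful irreducible character -/
def Gd (n : ℕ) (z : G) (χ : G → ℂ) : Prop := χ z = -χ 1 ∧ 2 * χ 1 ^ 2 = n

variable [Finite G] {z : G}

theorem XS.van (h : XS G z) {f : G → ℂ} (hf : IsCharacter G f) (hz : f z = -f 1) {x : G}
    (hx : x ∉ zpowers z) : f x = 0 := by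
  by_cases h0 : f 1 = 0
  · rw [char_eq_zero_of_one_eq_zero hf h0]; rfl
  obtain ⟨a, ha⟩ : ∃ a, a * x ≠ x * a := by simpa [← h.ce, mem_center_iff] using hx
  have h1 := ((mem_zpowers_two h.z2).1 (h.cm a x)).resolve_left fun e =>
    ha (mul_inv_eq_iff_eq_mul.1 (mul_inv_eq_one.1 e))
  have h2 := char_mul_of_norm_eq hf (g := z) (by rw [hz, norm_neg]) x
  rw [hz, neg_div_self h0, ← h1, inv_mul_cancel_right, isClassFunction_of_isCharacter hf] at h2
  linear_combination h2 / 2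

theorem XS.inner [Fintype G] (h : XS G z) {f : G → ℂ} (hf : IsCharacter G f) (hz : f z = -f 1) :
    Nat.card G * classInner f f = 2 * f 1 ^ 2 := by
  classical
  have h1 : (1 : G) ≠ z := fun e => by have := h.z2; rw [← e, orderOf_one] at this; omega
  rw [classInner_def, mul_inv_cancel_left₀ natCard_ne_zero,
    ← Finset.sum_subset (Finset.subset_univ {1, z}) fun x _ hx => by
      rw [h.van hf hz (by simpa [mem_zpowers_two h.z2] using hx), zero_mul],
    Finset.sum_pair h1, hz, map_neg, conj_char_one hf]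
  ring

theorem XS.irr (h : XS G z) {f : G → ℂ} (hf : IsCharacter G f) (hg : Gd (Nat.card G) z f) :
    IsIrrCharacter G f := by
  have := Fintype.ofFinite G
  exact isIrr_of_inner_self_eq_one hf ((mul_eq_left₀ natCard_ne_zero).1 ((h.inner hf hg.1).trans hg.2))

theorem XS.gd (h : XS G z) {f : G → ℂ} (hf : IsIrrCharacter G f) (hz : f z ≠ f 1) :
    Gd (Nat.card G) z f := by
  have := Fintype.ofFinite G
  have h0 : f 1 ≠ 0 := by
    rw [← deg_cast (isCharacter_of_isIrr hf)]; exact_mod_cast (deg_pos hf).ne'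
  have h1 := irr_mul_of_mem_center hf ((h.ce z).2 (mem_zpowers z)) z
  rw [← pow_two, ← h.z2, pow_orderOf_eq_one] at h1
  have h2 : f z = -f 1 := by
    have h3 : (f z - f 1) * (f z + f 1) = 0 := by field_simp at h1; linear_combination -h1
    exact eq_neg_of_add_eq_zero_left ((mul_eq_zero.1 h3).resolve_left (sub_ne_zero.2 hz))
  have h3 := h.inner (isCharacter_of_isIrr hf) h2
  rw [classInner_irr_self hf, mul_one] at h3
  exact ⟨h2, h3.symm⟩

theorem XS.uniq (h : XS G z) {f g : G → ℂ} {n : ℕ} (hf : IsCharacter G f) (hg : IsCharacter G g)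
    (h1 : Gd n z f) (h2 : Gd n z g) : f = g := by
  have h3 : f 1 = g 1 := by
    have h4 := h1.2.trans h2.2.symm
    rw [← deg_cast hf, ← deg_cast hg] at h4 ⊢
    have h5 : charDegree f ^ 2 = charDegree g ^ 2 := by exact_mod_cast mul_left_cancel₀ two_ne_zero h4
    rw [Nat.pow_left_injective two_ne_zero h5]
  ext x
  by_cases hx : x ∈ zpowers z
  · rcases (mem_zpowers_two h.z2).1 hx with rfl | rfl
    · exact h3
    · rw [h1.1, h2.1, h3]
  · rw [h.van hf h1.1 hx, h.van hg h2.1 hx]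

theorem XS.exists_gd (h : XS G z) : ∃ f, IsIrrCharacter G f ∧ Gd (Nat.card G) z f := by
  by_contra! H
  have h1 := eq_one_of_forall_irr_eq (g := z) fun χ hχ => by_contra fun e => H χ hχ (h.gd hχ e)
  have := h.z2
  rw [h1, orderOf_one] at this
  omega

theorem exists_prod_char {E₁ E₂ H : Subgroup G} (h₁ : H ≤ normalizer E₁) (h₂ : H ≤ normalizer E₂)
    (hc : ∀ a ∈ E₁, ∀ b ∈ E₂, a * b = b * a) (hd : (E₁ ⊔ E₂) ⊓ H = ⊥) {χ₁ χ₂ : G → ℂ}
    (hχ₁ : IsCharacter ↥(E₁ ⊔ H) fun x => χ₁ x) (hχ₂ : IsCharacter ↥(E₂ ⊔ H) fun x => χ₂ x)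
    (hk : ∀ a ∈ E₁, a⁻¹ ∈ E₂ → χ₁ a * χ₂ a⁻¹ = χ₁ 1 * χ₂ 1) :
    ∃ ψ : G → ℂ, (IsCharacter ↥(E₁ ⊔ E₂ ⊔ H) fun x => ψ x) ∧
      ∀ a ∈ E₁, ∀ b ∈ E₂, ∀ h ∈ H, ψ (a * b * h) = χ₁ (a * h) * χ₂ (b * h) := by
  classical
  have c₁ : ∀ h ∈ H, ∀ a ∈ E₁, h * a * h⁻¹ ∈ E₁ := fun h hh a => (mem_normalizer_iff.1 (h₁ hh) a).1
  have c₂ : ∀ h ∈ H, ∀ a ∈ E₂, h * a * h⁻¹ ∈ E₂ := fun h hh a => (mem_normalizer_iff.1 (h₂ hh) a).1
  let F : Subgroup (G × G × G) :=
    { carrier := {w | ∃ a ∈ E₁, ∃ b ∈ E₂, ∃ h ∈ H, w = (a * h, b * h, a * b * h)}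
      one_mem' := ⟨1, one_mem _, 1, one_mem _, 1, one_mem _, by simp [Prod.ext_iff]⟩
      mul_mem' := by
        rintro _ _ ⟨a, ha, b, hb, h, hh, rfl⟩ ⟨a', ha', b', hb', h', hh', rfl⟩
        refine ⟨_, mul_mem ha (c₁ h hh a' ha'), _, mul_mem hb (c₂ h hh b' hb'), _, mul_mem hh hh',
          Prod.ext (by simp; group) (Prod.ext (by simp; group) ?_)⟩
        calc a * b * h * (a' * b' * h') = a * (b * (h * a' * h⁻¹)) * h * b' * h' := by group
          _ = _ := by rw [← hc _ (c₁ h hh a' ha') b hb]; simp only; group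
      inv_mem' := by
        rintro _ ⟨a, ha, b, hb, h, hh, rfl⟩
        refine ⟨_, c₁ _ (inv_mem hh) _ (inv_mem ha), _, c₂ _ (inv_mem hh) _ (inv_mem hb), _,
          inv_mem hh, Prod.ext (by simp) (Prod.ext (by simp) ?_)⟩
        change (a * b * h)⁻¹ = _
        rw [hc a ha b hb]; simp only; group }
  let p₁ : F →* ↥(E₁ ⊔ H) := ((MonoidHom.fst _ _).comp F.subtype).codRestrict _ (by
    rintro ⟨_, a, ha, b, hb, h, hh, rfl⟩; exact mul_mem_sup ha hh)
  let p₂ : F →* ↥(E₂ ⊔ H) :=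
    ((MonoidHom.fst _ _).comp ((MonoidHom.snd _ _).comp F.subtype)).codRestrict _ (by
      rintro ⟨_, a, ha, b, hb, h, hh, rfl⟩; exact mul_mem_sup hb hh)
  let q := (MonoidHom.snd _ _).comp ((MonoidHom.snd _ _).comp F.subtype)
  let p₃ : F →* ↥(E₁ ⊔ E₂ ⊔ H) := q.codRestrict _ (by
    rintro ⟨_, a, ha, b, hb, h, hh, rfl⟩; exact mul_mem_sup (mul_mem_sup ha hb) hh)
  have hq : E₁ ⊔ E₂ ⊔ H ≤ q.range := sup_le (sup_le
    (fun a ha => ⟨⟨_, a, ha, 1, one_mem _, 1, one_mem _, rfl⟩, by simp [q]⟩)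
    fun a ha => ⟨⟨_, 1, one_mem _, a, ha, 1, one_mem _, rfl⟩, by simp [q]⟩)
    fun a ha => ⟨⟨_, 1, one_mem _, 1, one_mem _, a, ha, rfl⟩, by simp [q]⟩
  obtain ⟨ψ, hψ, hp⟩ := exists_char_comp_eq p₃
    (fun x => (hq x.2).imp fun w hw => Subtype.ext hw)
    (isCharacter_mul (isCharacter_comp p₁ hχ₁) (isCharacter_comp p₂ hχ₂)) (by
      rintro ⟨_, a, ha, b, hb, h, hh, rfl⟩ e
      have h1 : a * b * h = 1 := congrArg Subtype.val e
      obtain rfl : h = 1 := mem_bot.1 (hd ▸ mem_inf.2 ⟨by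
        rw [eq_inv_of_mul_eq_one_right h1]; exact inv_mem (mul_mem_sup ha hb), hh⟩)
      obtain rfl := eq_inv_of_mul_eq_one_right ((mul_one _).symm.trans h1)
      change χ₁ (a * 1) * χ₂ (a⁻¹ * 1) = χ₁ 1 * χ₂ 1
      rw [mul_one, mul_one, hk a ha hb])
  refine ⟨extendByZero _ ψ, by simpa only [extendByZero_coe] using hψ, fun a ha b hb h hh => ?_⟩
  exact (extendByZero_coe _ ψ (p₃ ⟨_, a, ha, b, hb, h, hh, rfl⟩)).trans
    (hp ⟨_, a, ha, b, hb, h, hh, rfl⟩)

/-- the number of extensions meeting `φ` an odd number of times is odd -/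
theorem odd_card_ext [Fintype G] (N : Subgroup G) [N.Normal] {a : ℕ} (ha : N.index = 2 ^ a)
    {ϑ : N → ℂ} (hϑ : IsIrrCharacter N ϑ) (hinv : ∀ (g : G) (n : N), ϑ (cj N g n) = ϑ n)
    {U : Type*} [Group U] [Fintype U] (ι : U →* G) {φ : U → ℂ} (hφ : IsCharacter U φ) {m : ℕ}
    (hm : Odd m) (h : classInner (fun u => indFun N ϑ (ι u)) φ = m) :
    Odd (Nat.card {χ : IrrCharacter G // (∀ n : N, (χ : G → ℂ) n = ϑ n) ∧
      ∃ k : ℕ, Odd k ∧ classInner (fun u => (χ : G → ℂ) (ι u)) φ = k}) := by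
  classical
  obtain ⟨e, he, hs⟩ := exists_char_eq_sum_nat (isCharacter_indFun N (isCharacter_of_isIrr hϑ))
  choose k hk using fun χ : IrrCharacter G =>
    exists_classInner_eq_nat (isCharacter_comp ι (irr_isCharacter χ)) hφ
  have h1 : m = ∑ χ, e χ * k χ := by
    have h2 : (fun u => indFun N ϑ (ι u)) =
        ∑ χ : IrrCharacter G, (e χ : ℂ) • fun u => (χ : G → ℂ) (ι u) := by
      ext u; rw [hs]; simp
    rw [h2, classInner_sum_left] at h
    simp only [classInner_smul_left, hk] at h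
    exact_mod_cast h.symm
  have h2 : ∀ χ : IrrCharacter G, Odd (e χ) ↔ ∀ n : N, (χ : G → ℂ) n = ϑ n := fun χ => by
    have h3 := he χ
    rw [classInner_indFun_left N ϑ (isClassFunction_of_isIrr χ.2), classInner_comm_genChar
      (isGenChar_of_isIrr hϑ) (isGenChar_restrict N (isGenChar_of_isIrr χ.2))] at h3
    refine ⟨fun ho => ?_, fun hr => ?_⟩
    · have h0 : classInner (fun n : N => (χ : G → ℂ) n) ϑ ≠ 0 := by
        rw [h3]; exact_mod_cast ho.pos.ne'
      have h4 := clifford_invariant N χ.2 hϑ h0 fun g => funext (hinv g)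
      obtain ⟨c, hc, hd⟩ := exists_deg_eq_mul N χ.2 hϑ h0
      have h5 : charDegree (χ : G → ℂ) = e χ * charDegree ϑ := deg_eq_of_eq (by
        rw [Nat.cast_mul, deg_cast (isCharacter_of_isIrr hϑ), ← h3]; exact congrFun h4 1)
      rw [Nat.eq_of_mul_eq_mul_right (deg_pos hϑ) (hd.symm.trans h5), ha] at hc
      have h6 : e χ = 1 := (ho.coprime_two_right.pow_right a).eq_one_of_dvd hc
      rw [h3, h6, Nat.cast_one, one_smul] at h4
      exact congrFun h4
    · rw [funext hr, classInner_irr_self hϑ] at h3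
      rw [show e χ = 1 by exact_mod_cast h3.symm]
      exact odd_one
  rw [h1, Finset.odd_sum_iff_odd_card_odd] at hm
  rw [Nat.card_eq_fintype_card, Fintype.card_subtype]
  convert hm using 3 with χ
  rw [Nat.odd_mul, h2, hk]
  simp

end CfsgLib.ChA
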